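import Mathlib
import Cfsg.Agent.Lib.Helper4.TIQ.Defs

/-!
# TIQ (S4151): package [KFACTS]

`Q ≤ N(H)` gives `[H,Q] ≤ H`, and `H`, `Q` normalize `[H,Q]`.
-/

set_option autoImplicit false

namespace Cfsg.Agent.Lib.Helper10.TIQ

open Cfsg.Agent.Lib.Helper4.TIQ
open scoped commutatorElement

universe u

/-- a subgroup all of whose elements conjugate `K` into itself normalizes `K` -/
theorem le_normalizer_of_conj_mem {G : Type u} [Group G] (S K : Subgroup G)
    (h : ∀ x ∈ S, ∀ k ∈ K, x * k * x⁻¹ ∈ K) : S ≤ Subgroup.normalizer (K : Set G) := by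
  intro x hx
  rw [Subgroup.mem_normalizer_iff]
  intro k
  constructor
  · exact h x hx k
  · intro hk
    have h1 := h x⁻¹ (S.inv_mem hx) _ hk
    have h2 : x⁻¹ * (x * k * x⁻¹) * x⁻¹⁻¹ = k := by group
    rwa [h2] at h1

/-- `[H,Q] ≤ H` when `Q` normalizes `H` -/
theorem comm_le_left {G : Type u} [Group G] (H Q : Subgroup G)
    (hQ : Q ≤ Subgroup.normalizer (H : Set G)) : ⁅H, Q⁆ ≤ H := by
  rw [Subgroup.commutator_le]
  intro h hh q hq
  have h1 : q * h⁻¹ * q⁻¹ ∈ H := (Subgroup.mem_normalizer_iff.1 (hQ hq) h⁻¹).1 (H.inv_mem hh)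
  have h2 : ⁅h, q⁆ = h * (q * h⁻¹ * q⁻¹) := by
    rw [commutatorElement_def]; group
  rw [h2]
  exact H.mul_mem hh h1

/-- `H` conjugates `[H,Q]` into itself -/
theorem conj_mem_comm_left {G : Type u} [Group G] (H Q : Subgroup G) :
    ∀ x ∈ H, ∀ k ∈ ⁅H, Q⁆, x * k * x⁻¹ ∈ ⁅H, Q⁆ := by
  intro x hx k hk
  have hle : ⁅H, Q⁆ ≤ (⁅H, Q⁆).comap (MulAut.conj x).toMonoidHom := by
    rw [Subgroup.commutator_le]
    intro h hh q hq
    rw [Subgroup.mem_comap]
    have e : (MulAut.conj x).toMonoidHom ⁅h, q⁆ = ⁅x * h, q⁆ * ⁅x, q⁆⁻¹ := by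
      simp only [MulEquiv.coe_toMonoidHom, MulAut.conj_apply, commutatorElement_def]
      group
    rw [e]
    exact Subgroup.mul_mem _ (Subgroup.commutator_mem_commutator (H.mul_mem hx hh) hq)
      (Subgroup.inv_mem _ (Subgroup.commutator_mem_commutator hx hq))
  have h1 := hle hk
  rwa [Subgroup.mem_comap, MulEquiv.coe_toMonoidHom, MulAut.conj_apply] at h1

/-- `Q` conjugates `[H,Q]` into itself when `Q` normalizes `H` -/
theorem conj_mem_comm_right {G : Type u} [Group G] (H Q : Subgroup G)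
    (hQ : Q ≤ Subgroup.normalizer (H : Set G)) :
    ∀ y ∈ Q, ∀ k ∈ ⁅H, Q⁆, y * k * y⁻¹ ∈ ⁅H, Q⁆ := by
  intro y hy k hk
  have hle : ⁅H, Q⁆ ≤ (⁅H, Q⁆).comap (MulAut.conj y).toMonoidHom := by
    rw [Subgroup.commutator_le]
    intro h hh q hq
    rw [Subgroup.mem_comap]
    have e : (MulAut.conj y).toMonoidHom ⁅h, q⁆ = ⁅y * h * y⁻¹, y * q * y⁻¹⁆ := by
      simp only [MulEquiv.coe_toMonoidHom, MulAut.conj_apply, commutatorElement_def]
      group
    rw [e]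
    exact Subgroup.commutator_mem_commutator ((Subgroup.mem_normalizer_iff.1 (hQ hy) h).1 hh)
      (Q.mul_mem (Q.mul_mem hy hq) (Q.inv_mem hy))
  have h1 := hle hk
  rwa [Subgroup.mem_comap, MulEquiv.coe_toMonoidHom, MulAut.conj_apply] at h1

/-- **[KFACTS]** -/
theorem pkgKFacts : PkgKFacts.{u} := by
  intro G _ H Q hQ
  exact ⟨comm_le_left H Q hQ, le_normalizer_of_conj_mem _ _ (conj_mem_comm_left H Q),
    le_normalizer_of_conj_mem _ _ (conj_mem_comm_right H Q hQ)⟩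

end Cfsg.Agent.Lib.Helper10.TIQ
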