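import Mathlib
import Cfsg.Agent.Lib.Helper4.TIQ.Defs
import Cfsg.Agent.Lib.Helper10.TIQ.KFacts

/-!
# TIQ (S4151): package [NRMN]

`O [H,Q] Q` is normal in `G = O N_G(H)` when `N_G(H) = Q H`.
-/

set_option autoImplicit false

namespace Cfsg.Agent.Lib.Helper10.TIQ

open Cfsg.Agent.Lib.Helper4.TIQ
open scoped commutatorElement

universe u

/-- **[NRMN]** -/
theorem pkgNormN : PkgNormN.{u} := by
  intro G _ _ H Q O hO hON hQ hQH
  obtain ⟨M, hM⟩ : ∃ M : Subgroup G, M = O ⊔ (⁅H, Q⁆ ⊔ Q) := ⟨_, rfl⟩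
  rw [← hM]
  have hOM : O ≤ M := hM ▸ le_sup_left
  have hKM : ⁅H, Q⁆ ≤ M := hM ▸ (le_sup_left.trans le_sup_right)
  have hQM : Q ≤ M := hM ▸ (le_sup_right.trans le_sup_right)
  -- an element conjugating `O`, `[H,Q]`, `Q` into `M` conjugates `M` into `M`
  have key : ∀ x : G, (∀ o ∈ O, x * o * x⁻¹ ∈ M) → (∀ k ∈ ⁅H, Q⁆, x * k * x⁻¹ ∈ M) →
      (∀ q ∈ Q, x * q * x⁻¹ ∈ M) → ∀ m ∈ M, x * m * x⁻¹ ∈ M := by
    intro x h1 h2 h3 m hm
    have hle : M ≤ M.comap (MulAut.conj x).toMonoidHom := by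
      conv_lhs => rw [hM]
      refine sup_le ?_ (sup_le ?_ ?_)
      · intro o ho
        rw [Subgroup.mem_comap, MulEquiv.coe_toMonoidHom, MulAut.conj_apply]
        exact h1 o ho
      · intro k hk
        rw [Subgroup.mem_comap, MulEquiv.coe_toMonoidHom, MulAut.conj_apply]
        exact h2 k hk
      · intro q hq
        rw [Subgroup.mem_comap, MulEquiv.coe_toMonoidHom, MulAut.conj_apply]
        exact h3 q hq
    have h4 := hle hm
    rwa [Subgroup.mem_comap, MulEquiv.coe_toMonoidHom, MulAut.conj_apply] at h4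
  have hQn : Q ≤ Subgroup.normalizer (M : Set G) := by
    apply le_normalizer_of_conj_mem
    intro x hx
    refine key x (fun o ho => hOM (hO.conj_mem o ho x))
      (fun k hk => hKM (conj_mem_comm_right H Q hQ x hx k hk))
      (fun q hq => hQM (Q.mul_mem (Q.mul_mem hx hq) (Q.inv_mem hx)))
  have hHn : H ≤ Subgroup.normalizer (M : Set G) := by
    apply le_normalizer_of_conj_mem
    intro x hx
    refine key x (fun o ho => hOM (hO.conj_mem o ho x))
      (fun k hk => hKM (conj_mem_comm_left H Q x hx k hk)) ?_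
    intro q hq
    have e : x * q * x⁻¹ = ⁅x, q⁆ * q := by
      rw [commutatorElement_def]; group
    rw [e]
    exact M.mul_mem (hKM (Subgroup.commutator_mem_commutator hx hq)) (hQM hq)
  have hN : Subgroup.normalizer (H : Set G) ≤ Subgroup.normalizer (M : Set G) := by
    rw [← hQH]
    exact sup_le hQn hHn
  have hO' : O ≤ Subgroup.normalizer (M : Set G) := hOM.trans Subgroup.le_normalizer
  have htop : Subgroup.normalizer (M : Set G) = ⊤ := by
    rw [eq_top_iff, ← hON]
    exact sup_le hO' hN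
  exact Subgroup.normalizer_eq_top_iff.1 htop

end Cfsg.Agent.Lib.Helper10.TIQ
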